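import Mathlib
import Cfsg.Agent.Lib.Helper32.P8.Tools
import Cfsg.Agent.Lib.Helper11.Scn.LemA0a

set_option autoImplicit false

/-!
# S4409 package (CYC): an automorphism of odd order leaving a cyclic 2-subgroup invariant
fixes it elementwise
-/

universe u

namespace Cfsg.Agent.Lib.Helper62.P8

open Cfsg.Agent.Lib.Helper32.P8

/-- a cyclic subgroup has at most one involution -/
theorem involution_unique_of_cyclic {G : Type u} [Group G] [Finite G] (B : Subgroup G)
    (hBc : IsCyclic ↥B) {x y : G} (hx : x ∈ B) (hy : y ∈ B) (hx2 : x * x = 1) (hy2 : y * y = 1)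
    (hx1 : x ≠ 1) (hy1 : y ≠ 1) : x = y := by
  classical
  haveI : Fintype ↥B := Fintype.ofFinite _
  by_contra hxy
  have hcard := IsCyclic.card_pow_eq_one_le (α := ↥B) (n := 2) (by norm_num)
  have hmem : ∀ z : G, ∀ hz : z ∈ B, z * z = 1 →
      (⟨z, hz⟩ : ↥B) ∈ Finset.univ.filter (fun a : ↥B => a ^ 2 = 1) := by
    intro z hz hz2
    rw [Finset.mem_filter]
    refine ⟨Finset.mem_univ _, ?_⟩
    apply Subtype.ext
    rw [Subgroup.coe_pow, Subgroup.coe_one, pow_two]
    exact hz2
  have h3 : 2 < (Finset.univ.filter (fun a : ↥B => a ^ 2 = 1)).card := by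
    rw [Finset.two_lt_card_iff]
    refine ⟨⟨1, B.one_mem⟩, ⟨x, hx⟩, ⟨y, hy⟩, hmem 1 B.one_mem (one_mul 1), hmem x hx hx2,
      hmem y hy hy2, ?_, ?_, ?_⟩
    · intro h
      exact hx1 (congrArg Subtype.val h).symm
    · intro h
      exact hy1 (congrArg Subtype.val h).symm
    · intro h
      exact hxy (congrArg Subtype.val h)
  omega

theorem lemCyc : LemCyc.{u} := by
  intro G _ _ B hB2 hBc φ hodd hinv
  classical
  have hcomm : ∀ x y : G, x ∈ B → y ∈ B → x * y = y * x := by
    intro x y hx hy
    have h := (IsCyclic.isMulCommutative (α := ↥B)).is_comm.comm ⟨x, hx⟩ ⟨y, hy⟩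
    exact congrArg Subtype.val h
  have key : ∀ n : ℕ, ∀ b ∈ B, orderOf b = n → φ b = b := by
    intro n
    induction n using Nat.strong_induction_on with
    | _ n ih =>
      intro b hb hn
      by_cases hb1 : b = 1
      · rw [hb1, map_one]
      obtain ⟨j, hj⟩ : ∃ j, orderOf b = 2 ^ j := by
        obtain ⟨k, hk⟩ := hB2 ⟨b, hb⟩
        have hk' : b ^ 2 ^ k = 1 := by
          have h := congrArg Subtype.val hk
          rw [Subgroup.coe_pow, Subgroup.coe_one] at h
          exact h
        obtain ⟨m, -, hm⟩ := (Nat.dvd_prime_pow Nat.prime_two).mp (orderOf_dvd_of_pow_eq_one hk')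
        exact ⟨m, hm⟩
      have hj0 : j ≠ 0 := by
        rintro rfl
        rw [pow_zero, orderOf_eq_one_iff] at hj
        exact hb1 hj
      obtain ⟨i, rfl⟩ := Nat.exists_eq_succ_of_ne_zero hj0
      have hbbB : b * b ∈ B := B.mul_mem hb hb
      have hlt : orderOf (b * b) < n := by
        have h1 : (b * b) ^ 2 ^ i = 1 := by
          rw [← pow_two, ← pow_mul, ← pow_succ', ← hj, pow_orderOf_eq_one]
        have h2 := Nat.le_of_dvd (by positivity) (orderOf_dvd_of_pow_eq_one h1)
        rw [← hn, hj, pow_succ]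
        have h3 : 0 < 2 ^ i := by positivity
        omega
      have hbb : φ (b * b) = b * b := ih _ hlt (b * b) hbbB rfl
      obtain ⟨t, ht⟩ : ∃ t, t = φ b * b⁻¹ := ⟨_, rfl⟩
      have hφb : φ b ∈ B := hinv b hb
      have htB : t ∈ B := by
        rw [ht]
        exact B.mul_mem hφb (B.inv_mem hb)
      have hφbt : φ b = t * b := by rw [ht, inv_mul_cancel_right]
      have htt : t * t = 1 := by
        have h1 : φ b * φ b = b * b := by rw [← map_mul, hbb]
        have h2 : b⁻¹ * φ b = φ b * b⁻¹ := hcomm _ _ (B.inv_mem hb) hφb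
        calc t * t = φ b * (b⁻¹ * φ b) * b⁻¹ := by rw [ht]; simp only [mul_assoc]
          _ = φ b * φ b * b⁻¹ * b⁻¹ := by rw [h2]; simp only [mul_assoc]
          _ = 1 := by rw [h1, mul_inv_cancel_right, mul_inv_cancel]
      by_cases ht1 : t = 1
      · rw [hφbt, ht1, one_mul]
      · -- `φ t = t` as `t` is the unique involution of `B`
        have hφt : φ t = t := by
          apply involution_unique_of_cyclic B hBc (hinv t htB) htB
          · rw [← map_mul, htt, map_one]
          · exact htt
          · intro h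
            apply ht1
            have h2 : φ t = φ 1 := by rw [h, map_one]
            exact φ.injective h2
          · exact ht1
        apply Cfsg.Agent.Lib.Helper11.Scn.aut_fix_of_sq_fix φ hodd b
        rw [hφbt, map_mul, hφt, hφbt, ← mul_assoc, htt, one_mul]
  intro b hb
  exact key _ b hb rfl

end Cfsg.Agent.Lib.Helper62.P8
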