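import Mathlib
import Cfsg.Agent.Lib.Helper32.P8.Tools
import Cfsg.Agent.Lib.Helper62.P8.Cyc

set_option autoImplicit false

/-!
# S4409 package (AB): an abelian 2-group without `P8`-subgroup is cyclic or a four-group
-/

universe u

namespace Cfsg.Agent.Lib.Helper62.P8

open Cfsg.Agent.Lib.Helper32.P8

section

variable {G : Type u} [Group G]

/-- the elements of order at most `2` of a commutative group -/
def omegaSub (hc : ∀ a b : G, a * b = b * a) : Subgroup G where
  carrier := {g | g * g = 1}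
  mul_mem' := by
    intro a b ha hb
    have ha' : a * a = 1 := ha
    have hb' : b * b = 1 := hb
    show a * b * (a * b) = 1
    calc a * b * (a * b) = a * (b * a) * b := by simp only [mul_assoc]
      _ = a * (a * b) * b := by rw [hc b a]
      _ = a * a * (b * b) := by simp only [mul_assoc]
      _ = 1 := by rw [ha', hb', one_mul]
  one_mem' := one_mul 1
  inv_mem' := by
    intro a ha
    have ha' : a * a = 1 := ha
    show a⁻¹ * a⁻¹ = 1
    rw [← mul_inv_rev, ha', inv_one]

theorem mem_omegaSub (hc : ∀ a b : G, a * b = b * a) (g : G) :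
    g ∈ omegaSub hc ↔ g * g = 1 := Iff.rfl

/-- `Ω ∪ Ω d⁻¹` for `d * d ∈ Ω`, in a commutative group -/
def extSub (Ω : Subgroup G) (d : G) (hc : ∀ a b : G, a * b = b * a) (hd : d * d ∈ Ω) :
    Subgroup G where
  carrier := {b | b ∈ Ω ∨ b * d ∈ Ω}
  mul_mem' := by
    rintro a b (ha | ha) (hb | hb)
    · exact Or.inl (Ω.mul_mem ha hb)
    · right
      have h1 : a * b * d = a * (b * d) := mul_assoc a b d
      rw [h1]
      exact Ω.mul_mem ha hb
    · right
      have h1 : a * b * d = a * d * b := by rw [mul_assoc, hc b d, ← mul_assoc]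
      rw [h1]
      exact Ω.mul_mem ha hb
    · left
      have h1 : a * d * (b * d) = a * b * (d * d) := by
        calc a * d * (b * d) = a * (d * b) * d := by simp only [mul_assoc]
          _ = a * (b * d) * d := by rw [hc d b]
          _ = a * b * (d * d) := by simp only [mul_assoc]
      have h2 : a * b = a * d * (b * d) * (d * d)⁻¹ := by rw [h1, mul_inv_cancel_right]
      rw [h2]
      exact Ω.mul_mem (Ω.mul_mem ha hb) (Ω.inv_mem hd)
  one_mem' := Or.inl Ω.one_mem
  inv_mem' := by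
    rintro a (ha | ha)
    · exact Or.inl (Ω.inv_mem ha)
    · right
      have h1 : a⁻¹ * d = (a * d)⁻¹ * (d * d) := by
        rw [mul_inv_rev, hc d⁻¹ a⁻¹, mul_assoc, inv_mul_cancel_left]
      rw [h1]
      exact Ω.mul_mem (Ω.inv_mem ha) hd

/-- orders in a 2-group -/
theorem orderOf_eq_two_pow (hG2 : IsPGroup 2 G) (x : G) : ∃ i, orderOf x = 2 ^ i := by
  obtain ⟨k, hk⟩ := hG2 x
  obtain ⟨m, -, hm⟩ := (Nat.dvd_prime_pow Nat.prime_two).mp (orderOf_dvd_of_pow_eq_one hk)
  exact ⟨m, hm⟩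

/-- a commutative finite 2-group with at most one involution is cyclic -/
theorem cyclic_of_unique_invol [Finite G] (hG2 : IsPGroup 2 G) (hc : ∀ a b : G, a * b = b * a)
    (huniq : ∀ x y : G, x * x = 1 → y * y = 1 → x ≠ 1 → y ≠ 1 → x = y) : IsCyclic G := by
  obtain ⟨g, hg⟩ := Finite.exists_max (fun x : G => orderOf x)
  rw [isCyclic_iff_exists_zpowers_eq_top]
  refine ⟨g, ?_⟩
  rw [eq_top_iff]
  intro x _
  by_contra hx
  obtain ⟨e, he⟩ := orderOf_eq_two_pow hG2 g
  have he0 : e ≠ 0 := by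
    rintro rfl
    rw [pow_zero] at he
    have h1 : orderOf x ≤ 1 := by
      rw [← he]
      exact hg x
    have h2 : orderOf x = 1 := le_antisymm h1 (orderOf_pos x)
    rw [orderOf_eq_one_iff] at h2
    apply hx
    rw [h2]
    exact Subgroup.one_mem _
  obtain ⟨e', rfl⟩ := Nat.exists_eq_succ_of_ne_zero he0
  obtain ⟨k, hk⟩ := hG2 x
  obtain ⟨j, hd, hdd⟩ := exists_pow_not_mem (Subgroup.zpowers g) x k hk hx
  obtain ⟨d, hddef⟩ : ∃ d, d = x ^ 2 ^ j := ⟨_, rfl⟩
  rw [← hddef] at hd hdd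
  rw [← mem_powers_iff_mem_zpowers, Submonoid.mem_powers_iff] at hdd
  obtain ⟨n, hn⟩ := hdd
  obtain ⟨z, hzdef⟩ : ∃ z, z = g ^ 2 ^ e' := ⟨_, rfl⟩
  have hzz : z * z = 1 := by
    rw [hzdef, ← pow_add, ← two_mul, ← pow_succ', ← he, pow_orderOf_eq_one]
  have hz1 : z ≠ 1 := by
    rw [hzdef]
    apply pow_ne_one_of_lt_orderOf (by positivity)
    rw [he, pow_succ]
    have h0 : 0 < 2 ^ e' := by positivity
    omega
  have hzg : z ∈ Subgroup.zpowers g := by
    rw [hzdef]
    exact Subgroup.pow_mem _ (Subgroup.mem_zpowers g) _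
  rcases Nat.even_or_odd' n with ⟨m, rfl | rfl⟩
  · obtain ⟨y, hydef⟩ : ∃ y, y = d * (g ^ m)⁻¹ := ⟨_, rfl⟩
    have hyy : y * y = 1 := by
      have h1 : y * y = d * d * ((g ^ m)⁻¹ * (g ^ m)⁻¹) := by
        rw [hydef]
        calc d * (g ^ m)⁻¹ * (d * (g ^ m)⁻¹) = d * ((g ^ m)⁻¹ * d) * (g ^ m)⁻¹ := by
              simp only [mul_assoc]
          _ = d * (d * (g ^ m)⁻¹) * (g ^ m)⁻¹ := by rw [hc (g ^ m)⁻¹ d]
          _ = d * d * ((g ^ m)⁻¹ * (g ^ m)⁻¹) := by simp only [mul_assoc]
      rw [h1, ← hn, ← mul_inv_rev, ← pow_add, ← two_mul, mul_inv_cancel]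
    have hyg : y ∉ Subgroup.zpowers g := by
      intro h
      apply hd
      have h1 : d = y * g ^ m := by rw [hydef, inv_mul_cancel_right]
      rw [h1]
      exact Subgroup.mul_mem _ h (Subgroup.pow_mem _ (Subgroup.mem_zpowers g) _)
    have hy1 : y ≠ 1 := by
      intro h
      apply hyg
      rw [h]
      exact Subgroup.one_mem _
    have hyz := huniq y z hyy hzz hy1 hz1
    apply hyg
    rw [hyz]
    exact hzg
  · have hdord : orderOf d ∣ 2 ^ (e' + 1) := by
      obtain ⟨i, hi⟩ := orderOf_eq_two_pow hG2 d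
      have hle := hg d
      rw [hi, he] at hle
      rw [hi]
      exact pow_dvd_pow 2 ((Nat.pow_le_pow_iff_right (by norm_num)).mp hle)
    have h1 : d ^ 2 ^ (e' + 1) = 1 := orderOf_dvd_iff_pow_eq_one.mp hdord
    have h2 : d ^ 2 ^ (e' + 1) = g ^ ((2 * m + 1) * 2 ^ e') := by
      rw [pow_succ', pow_mul, pow_two, ← hn, ← pow_mul]
    rw [h2] at h1
    have h3 := orderOf_dvd_of_pow_eq_one h1
    rw [he, pow_succ'] at h3
    have h4 : 2 ∣ 2 * m + 1 := Nat.dvd_of_mul_dvd_mul_right (by positivity) h3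
    omega

end

theorem lemAb : LemAb.{u} := by
  intro G _ _ hG2 hc hno
  classical
  obtain ⟨Ω, hΩdef⟩ : ∃ Ω : Subgroup G, Ω = omegaSub hc := ⟨_, rfl⟩
  have hΩmem : ∀ g : G, g ∈ Ω ↔ g * g = 1 := by
    intro g
    rw [hΩdef]
    rfl
  by_cases hbig : 2 < Nat.card ↥Ω
  · right
    -- two distinct involutions
    have hxy : ∃ x ∈ Ω, ∃ y ∈ Ω, x ≠ 1 ∧ y ≠ 1 ∧ x ≠ y := by
      haveI : Fintype ↥Ω := Fintype.ofFinite _
      rw [Nat.card_eq_fintype_card, Fintype.two_lt_card_iff] at hbig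
      obtain ⟨a, b, c, hab, hac, hbc⟩ := hbig
      have hne : ∀ s t : ↥Ω, s ≠ t → (s : G) ≠ (t : G) := fun s t h h' => h (Subtype.ext h')
      by_cases ha : (a : G) = 1
      · refine ⟨b, b.2, c, c.2, ?_, ?_, hne b c hbc⟩
        · intro h
          exact hne a b hab (by rw [ha, h])
        · intro h
          exact hne a c hac (by rw [ha, h])
      · by_cases hb : (b : G) = 1
        · refine ⟨a, a.2, c, c.2, ha, ?_, hne a c hac⟩
          intro h
          exact hne b c hbc (by rw [hb, h])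
        · exact ⟨a, a.2, b, b.2, ha, hb, hne a b hab⟩
    obtain ⟨x, hx, y, hy, hx1, hy1, hxy⟩ := hxy
    obtain ⟨n, hn⟩ := IsPGroup.iff_card.mp (hG2.to_subgroup Ω)
    have hn2 : 2 ≤ n := by
      by_contra hlt
      have h1 : n ≤ 1 := by omega
      have h2 : 2 ^ n ≤ 2 ^ 1 := Nat.pow_le_pow_right (by norm_num) h1
      omega
    by_cases hn3 : 3 ≤ n
    · exfalso
      have hdvd : 2 ^ 3 ∣ Nat.card ↥Ω := by
        rw [hn]
        exact pow_dvd_pow 2 hn3
      haveI : Fact (Nat.Prime 2) := ⟨Nat.prime_two⟩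
      obtain ⟨K, hK⟩ := Sylow.exists_subgroup_card_pow_prime 2 hdvd
      apply hno
      refine ⟨K.map Ω.subtype, (isP8_map_subtype Ω K).mpr ⟨⟨⟨fun a b => ?_⟩⟩, ?_, ?_⟩⟩
      · exact Subtype.ext (Subtype.ext (hc _ _))
      · intro hcyc
        haveI : Fintype ↥K := Fintype.ofFinite _
        have h := IsCyclic.card_pow_eq_one_le (α := ↥K) (n := 2) (by norm_num)
        have hall : Finset.univ.filter (fun a : ↥K => a ^ 2 = 1) = Finset.univ := by
          apply Finset.filter_true_of_mem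
          intro a _
          apply Subtype.ext
          apply Subtype.ext
          rw [Subgroup.coe_pow, Subgroup.coe_pow, pow_two]
          exact (hΩmem _).mp a.1.2
        rw [hall, Finset.card_univ, ← Nat.card_eq_fintype_card, hK] at h
        norm_num at h
      · rw [hK]
        norm_num
    · have hΩ4 : Nat.card ↥Ω = 4 := by
        have h2 : n = 2 := by omega
        rw [hn, h2]
        norm_num
      have hall : ∀ g : G, g ∈ Ω := by
        intro g
        by_contra hg
        obtain ⟨k, hk⟩ := hG2 g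
        obtain ⟨j, hd, hdd⟩ := exists_pow_not_mem Ω g k hk hg
        obtain ⟨d, hddef⟩ : ∃ d, d = g ^ 2 ^ j := ⟨_, rfl⟩
        rw [← hddef] at hd hdd
        obtain ⟨B, hBdef⟩ : ∃ B : Subgroup G, B = extSub Ω d hc hdd := ⟨_, rfl⟩
        have hBmem : ∀ b : G, b ∈ B ↔ b ∈ Ω ∨ b * d ∈ Ω := by
          intro b
          rw [hBdef]
          rfl
        have hΩB : Ω ≤ B := fun b hb => (hBmem b).mpr (Or.inl hb)
        have hdB : d ∈ B := (hBmem d).mpr (Or.inr hdd)
        have hidx : Ω.relIndex B = 2 :=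
          Subgroup.relIndex_eq_two_iff_exists_notMem_and.mpr
            ⟨d, hdB, hd, fun b hb => ((hBmem b).mp hb).symm⟩
        have hcard : Nat.card ↥B = 8 := by
          have h1 := Subgroup.relIndex_mul_relIndex (⊥ : Subgroup G) Ω B bot_le hΩB
          rw [Subgroup.relIndex_bot_left, Subgroup.relIndex_bot_left, hidx, hΩ4] at h1
          omega
        apply hno
        refine ⟨B, ⟨⟨fun a b => Subtype.ext (hc _ _)⟩⟩, ?_, hcard⟩
        intro hcyc
        exact hxy (involution_unique_of_cyclic B hcyc (hΩB hx) (hΩB hy) ((hΩmem x).mp hx)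
          ((hΩmem y).mp hy) hx1 hy1)
      have htop : Ω = ⊤ := by
        rw [eq_top_iff]
        intro g _
        exact hall g
      refine ⟨?_, fun g => (hΩmem g).mp (hall g)⟩
      rw [← hΩ4, htop, Subgroup.card_top]
  · left
    apply cyclic_of_unique_invol hG2 hc
    intro x y hx2 hy2 hx1 hy1
    by_contra hxy
    apply hbig
    haveI : Fintype ↥Ω := Fintype.ofFinite _
    rw [Nat.card_eq_fintype_card, Fintype.two_lt_card_iff]
    refine ⟨⟨1, Ω.one_mem⟩, ⟨x, (hΩmem x).mpr hx2⟩, ⟨y, (hΩmem y).mpr hy2⟩, ?_, ?_, ?_⟩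
    · intro h
      exact hx1 (congrArg Subtype.val h).symm
    · intro h
      exact hy1 (congrArg Subtype.val h).symm
    · intro h
      exact hxy (congrArg Subtype.val h)

end Cfsg.Agent.Lib.Helper62.P8
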