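import Mathlib
import Cfsg.Agent.Lib.Helper32.P8.Tools
import Cfsg.Agent.Lib.Helper11.Scn.LemA0a

set_option autoImplicit false

/-!
# S4409 package (C1): every `A`-invariant normal abelian subgroup is central
-/

universe u

namespace Cfsg.Agent.Lib.Helper62.P8

open Cfsg.Agent.Lib.Helper32.P8

/-- the centre is invariant under automorphisms -/
theorem center_aut {Y : Type u} [Group Y] (ψ : MulAut Y) {z : Y} (hz : z ∈ Subgroup.center Y) :
    ψ z ∈ Subgroup.center Y := by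
  rw [Subgroup.mem_center_iff] at hz ⊢
  intro g
  have h1 := hz (ψ.symm g)
  have h2 := congrArg ψ h1
  rw [map_mul, map_mul, MulEquiv.apply_symm_apply] at h2
  exact h2

theorem lemC1 : LemC1.{u} := by
  intro hAb hCyc Y _ _ A ctx B hBn hBA hBab
  classical
  have hY2 := ctx.g.two
  haveI : Fact (Nat.Prime 2) := ⟨Nat.prime_two⟩
  have hBtop : B ≠ ⊤ := by
    intro h
    obtain ⟨a, b, hab⟩ := ctx.na
    exact hab (hBab a (by rw [h]; exact Subgroup.mem_top a) b
      (by rw [h]; exact Subgroup.mem_top b))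
  have hnoP8 : ¬ ∃ B' : Subgroup ↥B, IsP8 B' := by
    rintro ⟨B', hB'⟩
    apply hBtop
    apply ctx.min B hBA
    exact ⟨B'.map B.subtype, Subgroup.map_subtype_le B', (isP8_map_subtype B B').mpr hB'⟩
  have hB2 : IsPGroup 2 ↥B := hY2.to_subgroup B
  have hBc : ∀ a b : ↥B, a * b = b * a := fun a b => Subtype.ext (hBab a a.2 b b.2)
  rcases hAb hB2 hBc hnoP8 with hcyc | ⟨h4, hexp⟩
  · exact ctx.g.central_of_fixed B hBn
      (fun φ hφ => hCyc B hB2 hcyc φ (ctx.g.odd_order φ hφ) (hBA φ hφ))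
  · obtain ⟨B₀, hB₀def⟩ : ∃ B₀ : Subgroup Y, B₀ = B ⊓ Subgroup.center Y := ⟨_, rfl⟩
    have hB₀B : B₀ ≤ B := by
      rw [hB₀def]
      exact inf_le_left
    by_cases hB₀ : B₀ = B
    · rw [← hB₀, hB₀def]
      exact inf_le_right
    have hB₀A : ∀ ψ ∈ A, ∀ b ∈ B₀, ψ b ∈ B₀ := by
      intro ψ hψ b hb
      rw [hB₀def] at hb ⊢
      exact Subgroup.mem_inf.mpr
        ⟨hBA ψ hψ b (Subgroup.mem_inf.mp hb).1, center_aut ψ (Subgroup.mem_inf.mp hb).2⟩
    have hBbot : B ≠ ⊥ := by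
      intro h
      rw [h, Subgroup.card_bot] at h4
      omega
    have hB₀bot : B₀ ≠ ⊥ := by
      haveI := hBn
      obtain ⟨y, hyB, hyZ, hy1⟩ :=
        Cfsg.Agent.Lib.Helper11.Scn.normal_inf_center_ne_bot hY2 B hBbot
      intro h
      have hy : y ∈ B₀ := by
        rw [hB₀def]
        exact Subgroup.mem_inf.mpr ⟨hyB, hyZ⟩
      rw [h, Subgroup.mem_bot] at hy
      exact hy1 hy
    have hcard2 : Nat.card ↥B₀ = 2 := by
      have hd : Nat.card ↥B₀ ∣ 2 ^ 2 := by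
        have h1 := Subgroup.card_dvd_of_le hB₀B
        rw [h4] at h1
        exact h1
      obtain ⟨m, hm, hcm⟩ := (Nat.dvd_prime_pow Nat.prime_two).mp hd
      have hm0 : m ≠ 0 := by
        rintro rfl
        rw [pow_zero] at hcm
        exact hB₀bot (Subgroup.card_eq_one.mp hcm)
      have hm2 : m ≠ 2 := by
        rintro rfl
        apply hB₀
        apply Subgroup.eq_of_le_of_card_ge hB₀B
        rw [h4, hcm]
        norm_num
      have hm1 : m = 1 := by omega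
      rw [hcm, hm1, pow_one]
    have hcyc₀ : IsCyclic ↥B₀ := isCyclic_of_prime_card (p := 2) hcard2
    have hfix₀ : ∀ ψ ∈ A, ∀ b ∈ B₀, ψ b = b := fun ψ hψ =>
      hCyc B₀ (hY2.to_subgroup B₀) hcyc₀ ψ (ctx.g.odd_order ψ hψ) (hB₀A ψ hψ)
    have hidx : B₀.relIndex B = 2 := by
      have h1 := Subgroup.relIndex_mul_relIndex (⊥ : Subgroup Y) B₀ B bot_le hB₀B
      rw [Subgroup.relIndex_bot_left, Subgroup.relIndex_bot_left, hcard2, h4] at h1
      omega
    obtain ⟨a₀, -, hx⟩ := Subgroup.relIndex_eq_two_iff.mp hidx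
    have hout : ∀ b ∈ B, b ∉ B₀ → b * a₀ ∈ B₀ := by
      intro b hb hb₀
      rcases hx b hb with ⟨h1, -⟩ | ⟨h1, -⟩
      · exact h1
      · exact absurd h1 hb₀
    apply ctx.g.central_of_fixed B hBn
    intro φ hφ b hb
    by_cases hb₀ : b ∈ B₀
    · exact hfix₀ φ hφ b hb₀
    have hodd := ctx.g.odd_order φ hφ
    have hφb : φ b ∈ B := hBA φ hφ b hb
    have hφb₀ : φ b ∉ B₀ := by
      intro h
      apply hb₀
      have h1 := hB₀A φ⁻¹ (A.inv_mem hφ) (φ b) h
      have h2 : φ⁻¹ (φ b) = b := by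
        rw [← MulAut.mul_apply, inv_mul_cancel]
        rfl
      rw [h2] at h1
      exact h1
    obtain ⟨t, ht⟩ : ∃ t, t = φ b * b⁻¹ := ⟨_, rfl⟩
    have htB₀ : t ∈ B₀ := by
      have h1 : t = φ b * a₀ * (b * a₀)⁻¹ := by
        rw [ht, mul_inv_rev, mul_assoc, mul_inv_cancel_left]
      rw [h1]
      exact B₀.mul_mem (hout (φ b) hφb hφb₀) (B₀.inv_mem (hout b hb hb₀))
    have htt : t * t = 1 := by
      have h1 := hexp ⟨t, hB₀B htB₀⟩
      exact congrArg Subtype.val h1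
    have hφt : φ t = t := hfix₀ φ hφ t htB₀
    have hφbt : φ b = t * b := by rw [ht, inv_mul_cancel_right]
    apply Cfsg.Agent.Lib.Helper11.Scn.aut_fix_of_sq_fix φ hodd b
    rw [hφbt, map_mul, hφt, hφbt, ← mul_assoc, htt, one_mul]

end Cfsg.Agent.Lib.Helper62.P8
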