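import Mathlib
import Cfsg.Agent.Lib.Helper32.P8.Tools
import Cfsg.Agent.Lib.Helper11.Scn.LemA0a
import Cfsg.Agent.Lib.Helper62.P8.C1
import Cfsg.Agent.Lib.Helper62.P8.Cyc
import Cfsg.Agent.Lib.Helper62.P8.Ab

set_option autoImplicit false

/-!
# S4409 package (C3): the centre is `omZ Y`, of order 2 or 4, inside the derived group
-/

universe u

namespace Cfsg.Agent.Lib.Helper62.P8

open Cfsg.Agent.Lib.Helper32.P8 Cfsg.Agent.Lib.Helper32.Scn

/-- the elements of a four-group -/
theorem four_group_elems {Z : Type u} [Group Z] [Finite Z] (h4 : Nat.card Z = 4)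
    (hexp : ∀ g : Z, g * g = 1) (c v : Z) (hc : c ≠ 1) (hv : v ≠ 1) (hcv : v ≠ c) :
    ∀ w : Z, w = 1 ∨ w = c ∨ w = v ∨ w = c * v := by
  classical
  haveI : Fintype Z := Fintype.ofFinite Z
  intro w
  have h1 : c * v ≠ 1 := by
    intro h
    apply hcv
    exact mul_left_cancel (h.trans (hexp c).symm)
  have h2 : c * v ≠ c := by
    intro h
    apply hv
    exact mul_left_cancel (h.trans (mul_one c).symm)
  have h3 : c * v ≠ v := by
    intro h
    apply hc
    exact mul_right_cancel (h.trans (one_mul v).symm)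
  have n1 : (1 : Z) ∉ ({c, v, c * v} : Finset Z) := by
    simp only [Finset.mem_insert, Finset.mem_singleton]
    rintro (h | h | h)
    · exact hc h.symm
    · exact hv h.symm
    · exact h1 h.symm
  have n2 : c ∉ ({v, c * v} : Finset Z) := by
    simp only [Finset.mem_insert, Finset.mem_singleton]
    rintro (h | h)
    · exact hcv h.symm
    · exact h2 h.symm
  have n3 : v ∉ ({c * v} : Finset Z) := by
    simp only [Finset.mem_singleton]
    intro h
    exact h3 h.symm
  have hs : ({1, c, v, c * v} : Finset Z).card = 4 := by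
    rw [Finset.card_insert_of_notMem n1, Finset.card_insert_of_notMem n2,
      Finset.card_insert_of_notMem n3, Finset.card_singleton]
  have huniv : ({1, c, v, c * v} : Finset Z) = Finset.univ := by
    apply Finset.eq_univ_of_card
    rw [hs, ← Nat.card_eq_fintype_card, h4]
  have hw : w ∈ ({1, c, v, c * v} : Finset Z) := by
    rw [huniv]
    exact Finset.mem_univ w
  simp only [Finset.mem_insert, Finset.mem_singleton] at hw
  exact hw

theorem lemC3 : LemC3.{u} := by
  intro hAb hCyc Y _ _ A ctx hsq hcomm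
  classical
  have hY2 := ctx.g.two
  haveI : Fact (Nat.Prime 2) := ⟨Nat.prime_two⟩
  obtain ⟨Z, hZdef⟩ : ∃ Z : Subgroup Y, Z = Subgroup.center Y := ⟨_, rfl⟩
  have hZtop : Z ≠ ⊤ := by
    intro h
    obtain ⟨a, b, hab⟩ := ctx.na
    have hb : b ∈ Subgroup.center Y := by
      rw [← hZdef, h]
      exact Subgroup.mem_top b
    exact hab (Subgroup.mem_center_iff.mp hb a)
  have hZA : ∀ ψ ∈ A, ∀ z ∈ Z, ψ z ∈ Z := by
    intro ψ _ z hz
    rw [hZdef] at hz ⊢
    exact center_aut ψ hz
  have hnoP8 : ¬ ∃ B' : Subgroup ↥Z, IsP8 B' := by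
    rintro ⟨B', hB'⟩
    apply hZtop
    apply ctx.min Z hZA
    exact ⟨B'.map Z.subtype, Subgroup.map_subtype_le B', (isP8_map_subtype Z B').mpr hB'⟩
  have hZ2 : IsPGroup 2 ↥Z := hY2.to_subgroup Z
  have hZc : ∀ a b : ↥Z, a * b = b * a := by
    intro a b
    apply Subtype.ext
    have hb : (b : Y) ∈ Subgroup.center Y := by
      rw [← hZdef]
      exact b.2
    exact Subgroup.mem_center_iff.mp hb a
  have hder : commutator Y ≤ omZ Y := by
    rw [commutator_eq_closure, Subgroup.closure_le]
    rintro g ⟨g₁, g₂, rfl⟩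
    rw [commutatorElement_def]
    exact hcomm g₁ g₂
  have hodd := ctx.g.odd
  have hpow : ∀ v : Y, v * v = 1 → v ^ Nat.card A = v := by
    intro v hv
    obtain ⟨m, hm⟩ := hodd
    rw [hm, pow_succ, pow_mul, pow_two, hv, one_pow, one_mul]
  have hZne : ∃ z ∈ Z, z ≠ 1 := by
    haveI : Nontrivial Y := by
      obtain ⟨a, b, hab⟩ := ctx.na
      exact ⟨⟨a * b, b * a, hab⟩⟩
    haveI := IsPGroup.center_nontrivial hY2
    obtain ⟨z, hz⟩ := exists_ne (1 : Subgroup.center Y)
    refine ⟨z.1, ?_, fun h => hz (Subtype.ext h)⟩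
    rw [hZdef]
    exact z.2
  have hfixcase : (∀ z : Y, z ∈ Subgroup.center Y → z ∈ omZ Y) →
      (∀ φ ∈ A, ∀ z ∈ Z, φ z = z) → ∀ v ∈ omZ Y, v ∈ commutator Y := by
    intro _ hfix v hv
    have hvZ : v ∈ Z := by
      rw [hZdef]
      exact hv.1
    have := ctx.g.fix v (fun ψ hψ => hfix ψ hψ v hvZ)
    rw [hpow v (omZ_sq hv)] at this
    exact this
  rcases hAb hZ2 hZc hnoP8 with hcyc | ⟨h4, hexp⟩
  · -- cyclic centre
    have hfix : ∀ φ ∈ A, ∀ z ∈ Z, φ z = z :=
      fun φ hφ => hCyc Z hZ2 hcyc φ (ctx.g.odd_order φ hφ) (hZA φ hφ)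
    have hZom : ∀ z : Y, z ∈ Subgroup.center Y → z ∈ omZ Y := by
      intro z hz
      have hzZ : z ∈ Z := by
        rw [hZdef]
        exact hz
      have h1 : z ^ Nat.card A ∈ omZ Y := hder (ctx.g.fix z (fun ψ hψ => hfix ψ hψ z hzZ))
      have h2 := omZ_sq h1
      refine ⟨hz, ?_⟩
      obtain ⟨i, hi⟩ := orderOf_eq_two_pow hY2 z
      have h3 : orderOf z ∣ 2 * Nat.card A := by
        apply orderOf_dvd_of_pow_eq_one
        rw [two_mul, pow_add]
        exact h2
      have hi1 : i ≤ 1 := by
        by_contra hcon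
        have h4 : 2 ^ 2 ∣ 2 ^ i := pow_dvd_pow 2 (by omega)
        rw [← hi] at h4
        have h5 := h4.trans h3
        obtain ⟨m, hm⟩ := hodd
        rw [hm] at h5
        omega
      have h6 : orderOf z ∣ 2 ^ 1 := by
        rw [hi]
        exact pow_dvd_pow 2 hi1
      rw [pow_one] at h6
      have h7 := orderOf_dvd_iff_pow_eq_one.mp h6
      rw [pow_two] at h7
      exact h7
    refine ⟨hZom, ?_, hfixcase hZom hfix⟩
    left
    obtain ⟨z₀, hz₀Z, hz₀1⟩ := hZne
    have hz₀om : z₀ ∈ omZ Y := hZom z₀ (by rw [← hZdef]; exact hz₀Z)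
    have heq : omZ Y = Subgroup.zpowers z₀ := by
      apply le_antisymm
      · intro v hv
        by_cases hv1 : v = 1
        · rw [hv1]
          exact Subgroup.one_mem _
        · have hvZ : v ∈ Z := by
            rw [hZdef]
            exact hv.1
          have := involution_unique_of_cyclic Z hcyc hvZ hz₀Z (omZ_sq hv) (omZ_sq hz₀om) hv1 hz₀1
          rw [this]
          exact Subgroup.mem_zpowers z₀
      · exact Subgroup.zpowers_le.mpr hz₀om
    rw [heq, Nat.card_zpowers]
    apply orderOf_eq_prime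
    · rw [pow_two]
      exact omZ_sq hz₀om
    · exact hz₀1
  · -- four-group centre
    have hZom : ∀ z : Y, z ∈ Subgroup.center Y → z ∈ omZ Y := by
      intro z hz
      have hzZ : z ∈ Z := by
        rw [hZdef]
        exact hz
      exact ⟨hz, congrArg Subtype.val (hexp ⟨z, hzZ⟩)⟩
    have heq : omZ Y = Z := by
      apply le_antisymm
      · intro v hv
        rw [hZdef]
        exact hv.1
      · intro z hz
        rw [hZdef] at hz
        exact hZom z hz
    refine ⟨hZom, Or.inr (by rw [heq]; exact h4), ?_⟩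
    by_cases hfixall : ∀ φ ∈ A, ∀ z ∈ Z, φ z = z
    · exact hfixcase hZom hfixall
    · push Not at hfixall
      obtain ⟨φ, hφ, v₀, hv₀Z, hv₀⟩ := hfixall
      obtain ⟨a, b, hab⟩ := ctx.na
      obtain ⟨c, hcdef⟩ : ∃ c : Y, c = a * b * a⁻¹ * b⁻¹ := ⟨_, rfl⟩
      have hc1 : c ≠ 1 := by
        intro hc
        apply hab
        calc a * b = (a * b * a⁻¹ * b⁻¹) * (b * a) := by group
          _ = b * a := by rw [← hcdef, hc, one_mul]
      have hcom : c ∈ commutator Y := by
        have := Subgroup.commutator_mem_commutator (Subgroup.mem_top a) (Subgroup.mem_top b)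
        rw [commutatorElement_def, ← hcdef] at this
        exact this
      have hφcom : φ c ∈ commutator Y := by
        have := Subgroup.commutator_mem_commutator (Subgroup.mem_top (φ a))
          (Subgroup.mem_top (φ b))
        rw [commutatorElement_def] at this
        rw [hcdef, map_mul, map_mul, map_mul, map_inv, map_inv]
        exact this
      have hcom' : c ∈ omZ Y := hder hcom
      have hcZ : c ∈ Z := by
        rw [← heq]
        exact hcom'
      have hφodd := ctx.g.odd_order φ hφ
      have hφc : φ c ≠ c := by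
        intro hfc
        have hv₀1 : v₀ ≠ 1 := by
          intro h
          apply hv₀
          rw [h, map_one]
        have hv₀c : v₀ ≠ c := by
          intro h
          apply hv₀
          rw [h, hfc]
        have hcZ1 : (⟨c, hcZ⟩ : ↥Z) ≠ 1 := fun h => hc1 (congrArg Subtype.val h)
        have hvZ1 : (⟨v₀, hv₀Z⟩ : ↥Z) ≠ 1 := fun h => hv₀1 (congrArg Subtype.val h)
        have hvc : (⟨v₀, hv₀Z⟩ : ↥Z) ≠ ⟨c, hcZ⟩ := fun h => hv₀c (congrArg Subtype.val h)
        rcases four_group_elems h4 hexp ⟨c, hcZ⟩ ⟨v₀, hv₀Z⟩ hcZ1 hvZ1 hvc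
          ⟨φ v₀, hZA φ hφ v₀ hv₀Z⟩ with h | h | h | h
        · have h' : φ v₀ = 1 := congrArg Subtype.val h
          apply hv₀1
          apply φ.injective
          rw [h', map_one]
        · have h' : φ v₀ = c := congrArg Subtype.val h
          apply hv₀c
          apply φ.injective
          rw [h', hfc]
        · exact hv₀ (congrArg Subtype.val h)
        · have h' : φ v₀ = c * v₀ := congrArg Subtype.val h
          apply hv₀
          apply Cfsg.Agent.Lib.Helper11.Scn.aut_fix_of_sq_fix φ hφodd v₀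
          rw [h', map_mul, hfc, h', ← mul_assoc, omZ_sq hcom', one_mul]
      intro v hv
      have hvZ : v ∈ Z := by
        rw [← heq]
        exact hv
      have hφcZ : φ c ∈ Z := hZA φ hφ c hcZ
      have hcZ1 : (⟨c, hcZ⟩ : ↥Z) ≠ 1 := fun h => hc1 (congrArg Subtype.val h)
      have hφc1 : (⟨φ c, hφcZ⟩ : ↥Z) ≠ 1 := by
        intro h
        have h' : φ c = 1 := congrArg Subtype.val h
        apply hc1
        apply φ.injective
        rw [h', map_one]
      have hφcc : (⟨φ c, hφcZ⟩ : ↥Z) ≠ ⟨c, hcZ⟩ := fun h => hφc (congrArg Subtype.val h)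
      rcases four_group_elems h4 hexp ⟨c, hcZ⟩ ⟨φ c, hφcZ⟩ hcZ1 hφc1 hφcc ⟨v, hvZ⟩
        with h | h | h | h
      · have h' : v = 1 := congrArg Subtype.val h
        rw [h']
        exact Subgroup.one_mem _
      · have h' : v = c := congrArg Subtype.val h
        rw [h']
        exact hcom
      · have h' : v = φ c := congrArg Subtype.val h
        rw [h']
        exact hφcom
      · have h' : v = c * φ c := congrArg Subtype.val h
        rw [h']
        exact Subgroup.mul_mem _ hcom hφcom

end Cfsg.Agent.Lib.Helper62.P8
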